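import Cfsg.Agent.H2.Generation
import Cfsg.Agent.H2.Center

/-!
Mixed root elements and a generation criterion for symplectic groups.
-/

set_option autoImplicit false

namespace Cfsg.Agent.H2.SpTwoGen

open Matrix

variable {m : ℕ} {F : Type*} [Field F]

local notation "V" => (Fin m ⊕ Fin m → F)
local notation "SpG" => Matrix.symplecticGroup (Fin m) F
local notation "⇡(" g ")" => (Subtype.val (g : Matrix.symplecticGroup (Fin m) F) : Matrix (Fin m ⊕ Fin m) (Fin m ⊕ Fin m) F)
local notation "⟪" x ", " y "⟫" => sympBilin m F x y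

/-- A mixed (short) root element. -/
def mixed (u w : V) (c : F) : SpG := transv (u + w) c * transv u (-c) * transv w (-c)

theorem transv_mulVec (u x : V) (c : F) :
    (transv u c : Matrix (Fin m ⊕ Fin m) (Fin m ⊕ Fin m) F) *ᵥ x = x + (c * ⟪x, u⟫) • u := by
  rw [coe_transv, sympTransvection_mulVec, sympBilin_apply]

theorem mixed_mulVec {u w : V} (huw : ⟪u, w⟫ = 0) (x : V) (c : F) :
    (mixed u w c : Matrix (Fin m ⊕ Fin m) (Fin m ⊕ Fin m) F) *ᵥ x =
      x + (c * ⟪x, w⟫) • u + (c * ⟪x, u⟫) • w := by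
  have hu : ⟪u, u⟫ = 0 := sympBilin_isAlt m F u
  have hw : ⟪w, w⟫ = 0 := sympBilin_isAlt m F w
  have hwu : ⟪w, u⟫ = 0 := by rw [← (sympBilin_isAlt m F).neg_eq, huw, neg_zero]
  simp only [mixed, Submonoid.coe_mul, ← mulVec_mulVec, transv_mulVec, map_add, map_smul, LinearMap.add_apply,
    LinearMap.smul_apply, smul_eq_mul, hu, hw, huw, hwu, mul_zero, add_zero, mul_add]
  module

theorem mixed_smul_left {u w : V} (huw : ⟪u, w⟫ = 0) (a c : F) : mixed (a • u) w c = mixed u w (a * c) := by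
  have huw' : ⟪a • u, w⟫ = 0 := by rw [map_smul, LinearMap.smul_apply, huw, smul_zero]
  refine ext_of_mulVec fun x => ?_
  rw [mixed_mulVec huw, mixed_mulVec huw', map_smul, smul_eq_mul]
  module

theorem mixed_smul_right {u w : V} (huw : ⟪u, w⟫ = 0) (a c : F) : mixed u (a • w) c = mixed u w (a * c) := by
  have huw' : ⟪u, a • w⟫ = 0 := by rw [map_smul, huw, smul_zero]
  refine ext_of_mulVec fun x => ?_
  rw [mixed_mulVec huw, mixed_mulVec huw', map_smul, smul_eq_mul]
  module

theorem mixed_mul {u w : V} (huw : ⟪u, w⟫ = 0) (c d : F) : mixed u w c * mixed u w d = mixed u w (c + d) := by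
  have hwu : ⟪w, u⟫ = 0 := by rw [← (sympBilin_isAlt m F).neg_eq, huw, neg_zero]
  refine ext_of_mulVec fun x => ?_
  rw [Submonoid.coe_mul, ← mulVec_mulVec, mixed_mulVec huw, mixed_mulVec huw, mixed_mulVec huw]
  simp only [map_add, map_smul, LinearMap.add_apply, LinearMap.smul_apply, smul_eq_mul, huw, hwu,
    sympBilin_isAlt m F u, sympBilin_isAlt m F w, mul_zero, add_zero]
  module

theorem mixed_zero {u w : V} (huw : ⟪u, w⟫ = 0) : mixed u w (0 : F) = 1 := by
  refine ext_of_mulVec fun x => ?_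
  rw [mixed_mulVec huw]
  simp

theorem mixed_inv {u w : V} (huw : ⟪u, w⟫ = 0) (c : F) : (mixed u w c)⁻¹ = mixed u w (-c) :=
  inv_eq_of_mul_eq_one_right (by rw [mixed_mul huw, add_neg_cancel, mixed_zero huw])

theorem conj_mixed (g : SpG) (u w : V) (c : F) :
    g * mixed u w c * g⁻¹ = mixed (⇡(g) *ᵥ u) (⇡(g) *ᵥ w) c := by
  simp only [mixed, ← mulVec_add, ← conj_transv]
  group

/-- The `e` basis vectors. -/
def ee (i : Fin m) : V := Pi.single (Sum.inl i) 1

/-- The `f` basis vectors. -/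
def ff (i : Fin m) : V := Pi.single (Sum.inr i) 1

theorem form_ee (x : V) (i : Fin m) : ⟪x, ee i⟫ = x (Sum.inr i) := by
  rw [sympBilin_apply, sympForm_swap, ee, sympForm_single_inl, neg_neg]

theorem form_ff (x : V) (i : Fin m) : ⟪x, ff i⟫ = -x (Sum.inl i) := by
  rw [sympBilin_apply, sympForm_swap, ff, sympForm_single_inr]

theorem form_ee_ee (i j : Fin m) : ⟪ee i, ee j⟫ = 0 := by rw [form_ee]; simp [ee]

theorem form_ee_ff {i j : Fin m} (h : i ≠ j) : ⟪ee i, ff j⟫ = 0 := by rw [form_ff]; simp [ee, h.symm]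

/-- Moving a vector along a pair of coordinates with trivial `f` part. -/
def Step (H : Subgroup SpG) (i j : Fin m) : Prop :=
  ∀ x : V, (∀ k, x (Sum.inr k) = 0) → x (Sum.inl j) = 1 → (x (Sum.inl i) = 0 ∨ x (Sum.inl i) = 1) →
    ∃ g ∈ H, ⇡(g) *ᵥ x = Function.update (Function.update x (Sum.inl i) 1) (Sum.inl j) 0

/-- Normalising one coordinate pair. -/
theorem exists_normalise (H : Subgroup SpG) (he : ∀ i c, transv (ee (F := F) i) c ∈ H)
    (hf : ∀ i c, transv (ff (F := F) i) c ∈ H) (i : Fin m) (x : V) :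
    ∃ g ∈ H, (x (Sum.inl i) ≠ 0 ∨ x (Sum.inr i) ≠ 0 →
        (⇡(g) *ᵥ x) (Sum.inl i) = 1 ∧ (⇡(g) *ᵥ x) (Sum.inr i) = 0) ∧
      (x (Sum.inl i) = 0 ∧ x (Sum.inr i) = 0 → ⇡(g) *ᵥ x = x) ∧
      ∀ k, k ≠ i → (⇡(g) *ᵥ x) (Sum.inl k) = x (Sum.inl k) ∧ (⇡(g) *ᵥ x) (Sum.inr k) = x (Sum.inr k) := by
  classical
  have hae : ∀ c (y : V), ⇡(transv (ee i) c) *ᵥ y = y + (c * y (Sum.inr i)) • ee i := fun c y => by
    rw [transv_mulVec, form_ee]
  have haf : ∀ c (y : V), ⇡(transv (ff i) c) *ᵥ y = y + (-(c * y (Sum.inl i))) • ff i := fun c y => by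
    rw [transv_mulVec, form_ff, mul_neg]
  by_cases h0 : x (Sum.inl i) = 0 ∧ x (Sum.inr i) = 0
  · refine ⟨1, one_mem _, fun h => ?_, fun _ => by simp, fun k _ => by simp⟩
    exact absurd h0 (by tauto)
  by_cases hy : x (Sum.inr i) = 0
  · have hx : x (Sum.inl i) ≠ 0 := fun h => h0 ⟨h, hy⟩
    refine ⟨transv (ff i) (-x (Sum.inl i)) * transv (ee i) ((x (Sum.inl i) - 1) / x (Sum.inl i)) * transv (ff i) 1, ?_, fun _ => ?_,
      fun h => absurd h h0, fun k hk => ?_⟩
    · exact mul_mem (mul_mem (hf _ _) (he _ _)) (hf _ _)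
    · simp only [Submonoid.coe_mul, ← mulVec_mulVec, hae, haf]
      constructor <;> simp [ee, ff, hy] <;> field_simp <;> ring
    · simp only [Submonoid.coe_mul, ← mulVec_mulVec, hae, haf]
      constructor <;> simp [ee, ff, hk]
  · refine ⟨transv (ff i) (x (Sum.inr i)) * transv (ee i) ((1 - x (Sum.inl i)) / x (Sum.inr i)), mul_mem (hf _ _) (he _ _),
      fun _ => ?_, fun h => absurd h h0, fun k hk => ?_⟩
    · simp only [Submonoid.coe_mul, ← mulVec_mulVec, hae, haf]
      constructor <;> simp [ee, ff] <;> field_simp <;> ring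
    · simp only [Submonoid.coe_mul, ← mulVec_mulVec, hae, haf]
      constructor <;> simp [ee, ff, hk]

/-- The generation criterion. -/
theorem eq_top_of_steps (hm : 0 < m) (H : Subgroup SpG) (he : ∀ i c, transv (ee (F := F) i) c ∈ H)
    (hf : ∀ i c, transv (ff (F := F) i) c ∈ H)
    (hstep : ∀ i j : Fin m, (j : ℕ) = i + 1 → Step H i j) : H = ⊤ := by
  classical
  set o : Fin m := ⟨0, hm⟩
  let Orb : V → Prop := fun x => ∃ g ∈ H, ⇡(g) *ᵥ x = ee o
  have hOrb : ∀ (g : SpG) (x : V), g ∈ H → Orb (⇡(g) *ᵥ x) → Orb x := by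
    rintro g x hg ⟨h, hh, e⟩
    exact ⟨h * g, mul_mem hh hg, by rw [Submonoid.coe_mul, ← mulVec_mulVec, e]⟩
  have hmain : ∀ (N : ℕ) (S : Finset (Fin m)), ∑ i ∈ S, ((i : ℕ) + 1) = N → S.Nonempty →
      Orb (fun k => Sum.elim (fun i => if i ∈ S then (1 : F) else 0) (fun _ => 0) k) := by
    intro N
    induction N using Nat.strong_induction_on with
    | _ N ih =>
      intro S hN hS
      by_cases hS0 : ∀ j ∈ S, j = o
      · refine ⟨1, one_mem _, ?_⟩
        have hSo : S = {o} := Finset.eq_singleton_iff_nonempty_unique_mem.mpr ⟨hS, hS0⟩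
        rw [OneMemClass.coe_one, one_mulVec, hSo]
        funext k
        rcases k with k | k <;> simp [ee, Pi.single_apply]
      · push Not at hS0
        obtain ⟨j, hj, hjo⟩ := hS0
        have hj0 : (j : ℕ) ≠ 0 := fun h => hjo (Fin.ext h)
        obtain ⟨i, hi⟩ : ∃ i : Fin m, (j : ℕ) = i + 1 := ⟨⟨(j : ℕ) - 1, by omega⟩, by simp; omega⟩
        have hij : i ≠ j := fun h => by rw [h] at hi; omega
        obtain ⟨g, hg, e⟩ := hstep i j hi
          (fun k => Sum.elim (fun i => if i ∈ S then (1 : F) else 0) (fun _ => 0) k) (fun k => rfl)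
          (by simp [hj]) (by by_cases h : i ∈ S <;> simp [h])
        refine hOrb g _ hg ?_
        rw [e]
        have hlt : ∑ k ∈ insert i (S.erase j), ((k : ℕ) + 1) < N := by
          subst hN
          have hS' := Finset.add_sum_erase S (fun k : Fin m => (k : ℕ) + 1) hj
          by_cases hiS : i ∈ S.erase j
          · rw [Finset.insert_eq_self.mpr hiS]; omega
          · rw [Finset.sum_insert hiS]
            omega
        convert ih _ hlt (insert i (S.erase j)) rfl (Finset.insert_nonempty _ _) using 2 with k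
        rcases k with k | k
        · rw [Function.update_apply, Function.update_apply]
          simp only [Sum.elim_inl, Sum.inl.injEq, Finset.mem_insert, Finset.mem_erase]
          by_cases hkj : k = j
          · rw [if_pos hkj, hkj, if_neg]
            rintro (h | h)
            · exact hij h.symm
            · exact h.1 rfl
          · rw [if_neg hkj]
            by_cases hki : k = i
            · rw [if_pos hki, if_pos (Or.inl hki)]
            · rw [if_neg hki]
              by_cases hkS : k ∈ S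
              · rw [if_pos hkS, if_pos (Or.inr ⟨hkj, hkS⟩)]
              · rw [if_neg hkS, if_neg (by tauto)]
        · rw [Function.update_of_ne (by simp), Function.update_of_ne (by simp)]
          rfl
  have htrans : ∀ x : V, x ≠ 0 → Orb x := by
    intro x hx
    have hnorm : ∀ T : Finset (Fin m), ∃ g ∈ H, (∀ i ∈ T, (⇡(g) *ᵥ x) (Sum.inr i) = 0 ∧
        ((x (Sum.inl i) ≠ 0 ∨ x (Sum.inr i) ≠ 0) ∧ (⇡(g) *ᵥ x) (Sum.inl i) = 1 ∨
          (x (Sum.inl i) = 0 ∧ x (Sum.inr i) = 0) ∧ (⇡(g) *ᵥ x) (Sum.inl i) = 0)) ∧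
        ∀ i ∉ T, (⇡(g) *ᵥ x) (Sum.inl i) = x (Sum.inl i) ∧ (⇡(g) *ᵥ x) (Sum.inr i) = x (Sum.inr i) := by
      intro T
      induction T using Finset.induction with
      | empty => exact ⟨1, one_mem _, by simp, by simp⟩
      | @insert i T hi ih =>
        obtain ⟨g, hg, h1, h2⟩ := ih
        obtain ⟨n, hn, hn1, hn2, hn3⟩ := exists_normalise H he hf i (⇡(g) *ᵥ x)
        refine ⟨n * g, mul_mem hn hg, fun k hk => ?_, fun k hk => ?_⟩
        · rw [Submonoid.coe_mul, ← mulVec_mulVec]
          by_cases hki : k = i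
          · subst hki
            obtain ⟨el, er⟩ := h2 k hi
            by_cases h0 : x (Sum.inl k) = 0 ∧ x (Sum.inr k) = 0
            · rw [hn2 ⟨el.trans h0.1, er.trans h0.2⟩]
              exact ⟨er.trans h0.2, Or.inr ⟨h0, el.trans h0.1⟩⟩
            · have h0' : x (Sum.inl k) ≠ 0 ∨ x (Sum.inr k) ≠ 0 := by tauto
              obtain ⟨a, b⟩ := hn1 (by rwa [el, er])
              exact ⟨b, Or.inl ⟨h0', a⟩⟩
          · rw [(hn3 k hki).1, (hn3 k hki).2]
            exact h1 k ((Finset.mem_insert.mp hk).resolve_left hki)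
        · rw [Submonoid.coe_mul, ← mulVec_mulVec]
          rw [Finset.mem_insert, not_or] at hk
          rw [(hn3 k hk.1).1, (hn3 k hk.1).2]
          exact h2 k hk.2
    obtain ⟨g, hg, h1, -⟩ := hnorm Finset.univ
    refine hOrb g x hg ?_
    let S : Finset (Fin m) := Finset.univ.filter fun i => x (Sum.inl i) ≠ 0 ∨ x (Sum.inr i) ≠ 0
    have hS : S.Nonempty := by
      by_contra h
      refine hx (funext fun k => ?_)
      rcases k with k | k <;>
      · by_contra hk
        exact h ⟨k, Finset.mem_filter.mpr ⟨Finset.mem_univ _, by tauto⟩⟩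
    convert hmain _ S rfl hS using 2 with k
    rcases k with k | k
    · rcases (h1 k (Finset.mem_univ _)).2 with ⟨a, b⟩ | ⟨⟨a, a'⟩, b⟩
      · simp [S, a, b]
      · simp [S, a, a', b]
    · simpa using (h1 k (Finset.mem_univ _)).1
  rw [eq_top_iff, ← closure_transv_eq_top, Subgroup.closure_le]
  rintro _ ⟨v, c, rfl⟩
  by_cases hv : v = 0
  · have : transv v c = (1 : SpG) := ext_of_mulVec fun x => by simp [transv_mulVec, hv, -coe_transv]
    rw [this]
    exact one_mem _
  · obtain ⟨g, hg, e⟩ := htrans v hv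
    have : transv v c = g⁻¹ * transv (ee o) c * g := by
      rw [← e, ← conj_transv]; group
    rw [this]
    exact mul_mem (mul_mem (inv_mem hg) (he o c)) hg

end Cfsg.Agent.H2.SpTwoGen
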