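import Cfsg.Agent.H2.SpTwoGen.Basic

/-!
Monomial and torus elements.
-/

set_option autoImplicit false

namespace Cfsg.Agent.H2.SpTwoGen

open Matrix

variable {m : ℕ} {F : Type*} [Field F]

local notation "V" => (Fin m ⊕ Fin m → F)
local notation "SpG" => Matrix.symplecticGroup (Fin m) F
local notation "⇡(" g ")" => (Subtype.val (g : Matrix.symplecticGroup (Fin m) F) : Matrix (Fin m ⊕ Fin m) (Fin m ⊕ Fin m) F)
local notation "⟪" x ", " y "⟫" => sympBilin m F x y

/-! ### The monomial element and the torus -/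

/-- The diagonal element scaling one coordinate pair. -/
def dg (i : Fin m) (z : Fˣ) : SpG :=
  ⟨Matrix.diagonal (Sum.elim (fun k => if k = i then (z : F) else 1) (fun k => if k = i then ((z⁻¹ : Fˣ) : F) else 1)),
    mem_symplecticGroup_iff.mpr fun u v => by
      simp only [sympForm_apply, mulVec_diagonal, Sum.elim_inl, Sum.elim_inr]
      refine Finset.sum_congr rfl fun k _ => ?_
      by_cases h : k = i
      · simp only [if_pos h, Units.val_inv_eq_inv_val]; field_simp
      · simp only [if_neg h, one_mul]⟩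

theorem dg_mulVec (i : Fin m) (z : Fˣ) (x : V) :
    ⇡((dg i z)) *ᵥ x = fun k =>
      Sum.elim (fun j => if j = i then (z : F) * x (Sum.inl j) else x (Sum.inl j))
        (fun j => if j = i then ((z⁻¹ : Fˣ) : F) * x (Sum.inr j) else x (Sum.inr j)) k := by
  funext k
  rcases k with k | k <;> simp [dg, mulVec_diagonal]

/-- The rotation of coordinate pairs with one twist. -/
def rotLin (hm : 0 < m) : V →ₗ[F] V where
  toFun x := Sum.elim
    (fun i : Fin m => if (i : ℕ) = 0 then -x (Sum.inr ⟨m - 1, by omega⟩) else x (Sum.inl ⟨(i : ℕ) - 1, by omega⟩))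
    (fun i : Fin m => if (i : ℕ) = 0 then x (Sum.inl ⟨m - 1, by omega⟩) else x (Sum.inr ⟨(i : ℕ) - 1, by omega⟩))
  map_add' x y := by
    funext k
    rcases k with k | k <;> by_cases h : (k : ℕ) = 0 <;> simp [h] <;> ring
  map_smul' c x := by
    funext k
    rcases k with k | k <;> by_cases h : (k : ℕ) = 0 <;> simp [h]

/-- The rotation as a symplectic element. -/
def rot (hm : 0 < m) : SpG :=
  ⟨LinearMap.toMatrix' (rotLin (F := F) hm), mem_symplecticGroup_iff.mpr fun u v => by
    rw [LinearMap.toMatrix'_mulVec, LinearMap.toMatrix'_mulVec, sympForm_apply, sympForm_apply]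
    simp only [rotLin, LinearMap.coe_mk, AddHom.coe_mk, Sum.elim_inl, Sum.elim_inr]
    obtain ⟨k, rfl⟩ : ∃ k, m = k + 1 := ⟨m - 1, by omega⟩
    conv_lhs => rw [Fin.sum_univ_succ]
    conv_rhs => rw [Fin.sum_univ_castSucc]
    rw [add_comm]
    congr 1
    simp only [Fin.val_zero, if_true, Nat.add_sub_cancel]
    rw [show (⟨k, by omega⟩ : Fin (k + 1)) = Fin.last k from rfl]
    ring⟩

theorem rot_mulVec (hm : 0 < m) (x : V) : ⇡((rot hm)) *ᵥ x = rotLin hm x :=
  LinearMap.toMatrix'_mulVec _ _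

theorem rot_ee {i j : Fin m} (hm : 0 < m) (h : (j : ℕ) = i + 1) :
    ⇡((rot hm)) *ᵥ ee i = ee j := by
  rw [rot_mulVec]
  funext k
  rcases k with k | k <;> by_cases hk : (k : ℕ) = 0 <;>
    simp [rotLin, ee, Pi.single_apply, hk, Fin.ext_iff] <;> first | omega | (congr 1; simp only [eq_iff_iff]; omega)

theorem rot_ff {i j : Fin m} (hm : 0 < m) (h : (j : ℕ) = i + 1) :
    ⇡((rot hm)) *ᵥ ff i = ff j := by
  rw [rot_mulVec]
  funext k
  rcases k with k | k <;> by_cases hk : (k : ℕ) = 0 <;>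
    simp [rotLin, ff, Pi.single_apply, hk, Fin.ext_iff] <;> first | omega | (congr 1; simp only [eq_iff_iff]; omega)

theorem rot_ee_last (hm : 0 < m) :
    ⇡((rot hm)) *ᵥ ee ⟨m - 1, by omega⟩ = ff ⟨0, hm⟩ := by
  rw [rot_mulVec]
  funext k
  rcases k with k | k <;> by_cases hk : (k : ℕ) = 0 <;>
    simp [rotLin, ee, ff, Pi.single_apply, hk, Fin.ext_iff] <;> omega

theorem rot_ff_last (hm : 0 < m) :
    ⇡((rot hm)) *ᵥ ff ⟨m - 1, by omega⟩ = (-1 : F) • ee ⟨0, hm⟩ := by
  rw [rot_mulVec]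
  funext k
  rcases k with k | k <;> by_cases hk : (k : ℕ) = 0 <;>
    simp [rotLin, ee, ff, Pi.single_apply, hk, Fin.ext_iff] <;> omega

/-- All coordinate root groups from one of them and the rotation. -/
theorem mem_all (hm : 0 < m) (H : Subgroup SpG) (hr : rot hm ∈ H) {i₀ : Fin m}
    (h0 : ∀ c, transv (ee (F := F) i₀) c ∈ H) :
    (∀ i c, transv (ee (F := F) i) c ∈ H) ∧ ∀ i c, transv (ff (F := F) i) c ∈ H := by
  have hnext : ∀ {u v : V}, ⇡((rot hm)) *ᵥ u = v → (∀ c, transv u c ∈ H) →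
      ∀ c, transv v c ∈ H := by
    intro u v e h c
    rw [← e, ← conj_transv]
    exact mul_mem (mul_mem hr (h c)) (inv_mem hr)
  have hup : ∀ j : ℕ, (i₀ : ℕ) ≤ j → ∀ (hj : j < m) (c : F), transv (ee (F := F) ⟨j, hj⟩) c ∈ H := by
    intro j hle
    induction j, hle using Nat.le_induction with
    | base => intro hj; exact h0
    | succ j hle ih => intro hj; exact hnext (rot_ee hm rfl) (ih (by omega))
  have hff : ∀ (j : Fin m) c, transv (ff (F := F) j) c ∈ H := by
    rintro ⟨j, hj⟩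
    induction j with
    | zero => exact hnext (rot_ee_last hm) (hup _ (by omega) _)
    | succ j ih => exact hnext (rot_ff hm rfl) (ih (by omega))
  refine ⟨?_, hff⟩
  rintro ⟨j, hj⟩
  induction j with
  | zero =>
    intro c
    have := hnext (rot_ff_last hm) (hff ⟨m - 1, by omega⟩) c
    rwa [transv_smul, neg_mul_neg, one_mul, one_mul] at this
  | succ j ih => exact hnext (rot_ee hm rfl) (ih (by omega))

/-- Mixed root groups on consecutive pairs. -/
theorem mixed_ee_all (hm : 0 < m) (H : Subgroup SpG) (hr : rot hm ∈ H) {i₀ i₁ : Fin m} (h0 : (i₀ : ℕ) = 0)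
    (h1 : (i₁ : ℕ) = 1) (h : ∀ c, mixed (ee (F := F) i₀) (ee i₁) c ∈ H) :
    ∀ i j : Fin m, (j : ℕ) = i + 1 → ∀ c, mixed (ee (F := F) i) (ee j) c ∈ H := by
  rintro ⟨i, hi⟩
  induction i with
  | zero =>
    intro j hj c
    rw [show (⟨0, hi⟩ : Fin m) = i₀ from Fin.ext h0.symm, show j = i₁ from Fin.ext (by simp only at hj; omega)]
    exact h c
  | succ i ih =>
    intro j hj c
    simp only at hj
    have hmid : i + 1 < m := hi
    have := mul_mem (mul_mem hr (ih (by omega) ⟨i + 1, hmid⟩ rfl c)) (inv_mem hr)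
    rwa [conj_mixed, rot_ee hm (j := ⟨i + 1, hmid⟩) rfl, rot_ee hm (j := j) (by simp; omega)] at this

end Cfsg.Agent.H2.SpTwoGen
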