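import Cfsg.Agent.H2.SpTwoGen.Elements

/-!
Two generators over fields with at least three elements.
-/

set_option autoImplicit false

namespace Cfsg.Agent.H2.SpTwoGen

open Matrix

variable {m : ℕ} {F : Type*} [Field F]

local notation "V" => (Fin m ⊕ Fin m → F)
local notation "SpG" => Matrix.symplecticGroup (Fin m) F
local notation "⇡(" g ")" => (Subtype.val (g : Matrix.symplecticGroup (Fin m) F) : Matrix (Fin m ⊕ Fin m) (Fin m ⊕ Fin m) F)
local notation "⟪" x ", " y "⟫" => sympBilin m F x y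

/-- Mixed root elements give steps. -/
theorem step_of_mixed (H : Subgroup SpG) (hE : ∀ i c, transv (ee (F := F) i) c ∈ H)
    (hF : ∀ i c, transv (ff (F := F) i) c ∈ H) {i j : Fin m} (hij : i ≠ j)
    (hM : ∀ c, mixed (ee (F := F) i) (ee j) c ∈ H) : Step H i j := by
  classical
  intro x hx hxj hxi
  have hA : ∀ (p : Fin m) (z : V), z (Sum.inl p) = 1 → z (Sum.inr p) = 0 →
      ⇡((transv (ee p) (-1) * transv (ff p) (-1))) *ᵥ z = z + (-1 : F) • ee p + (1 : F) • ff p := by
    intro p z h1 h2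
    simp only [Submonoid.coe_mul, ← mulVec_mulVec, transv_mulVec, form_ee, form_ff, h1]
    funext k
    simp [ee, ff, h2, Pi.single_apply]
    ring
  have hB : ∀ (p : Fin m) (z : V), z (Sum.inl p) = 0 → z (Sum.inr p) = 1 →
      ⇡((transv (ff p) 1 * transv (ee p) 1)) *ᵥ z = z + (1 : F) • ee p + (-1 : F) • ff p := by
    intro p z h1 h2
    simp only [Submonoid.coe_mul, ← mulVec_mulVec, transv_mulVec, form_ee, form_ff, h2]
    funext k
    simp [ee, ff, h1, Pi.single_apply]
  have hoe : ⟪(ee i : V), ee j⟫ = 0 := form_ee_ee _ _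
  have hg1 : ∀ z : V, (∀ k, z (Sum.inr k) = 0) → z (Sum.inl i) = 1 → z (Sum.inl j) = 1 →
      ⇡((transv (ff i) 1 * transv (ee i) 1 * mixed (ee i) (ee j) (-1) *
        (transv (ee i) (-1) * transv (ff i) (-1)))) *ᵥ z = z + (-1 : F) • ee j := by
    intro z hz h1 h2
    rw [Submonoid.coe_mul, ← mulVec_mulVec, hA i z h1 (hz i), Submonoid.coe_mul _ _ (mixed _ _ _), ← mulVec_mulVec,
      mixed_mulVec hoe, hB i]
    all_goals first | funext k | skip
    all_goals simp only [form_ee, map_add, map_smul, LinearMap.add_apply, LinearMap.smul_apply, Pi.add_apply, Pi.smul_apply, smul_eq_mul]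
    all_goals simp [ee, ff, hz, h1, hij, hij.symm, Pi.single_apply]
    all_goals (split_ifs <;> first | ring | simp_all)
  have hg0 : ∀ z : V, (∀ k, z (Sum.inr k) = 0) → z (Sum.inl i) = 0 → z (Sum.inl j) = 1 →
      ⇡((transv (ff j) 1 * transv (ee j) 1 * mixed (ee i) (ee j) 1 *
        (transv (ee j) (-1) * transv (ff j) (-1)))) *ᵥ z = z + (1 : F) • ee i := by
    intro z hz h1 h2
    rw [Submonoid.coe_mul, ← mulVec_mulVec, hA j z h2 (hz j), Submonoid.coe_mul _ _ (mixed _ _ _), ← mulVec_mulVec,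
      mixed_mulVec hoe, hB j]
    all_goals first | funext k | skip
    all_goals simp only [form_ee, map_add, map_smul, LinearMap.add_apply, LinearMap.smul_apply, Pi.add_apply, Pi.smul_apply, smul_eq_mul]
    all_goals simp [ee, ff, hz, h2, hij, hij.symm, Pi.single_apply]
    all_goals (split_ifs <;> first | ring | simp_all)
  have hg1H : transv (ff i) 1 * transv (ee i) 1 * mixed (ee i) (ee j) (-1) *
      (transv (ee i) (-1) * transv (ff i) (-1)) ∈ H :=
    mul_mem (mul_mem (mul_mem (hF _ _) (hE _ _)) (hM _)) (mul_mem (hE _ _) (hF _ _))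
  have hg0H : transv (ff j) 1 * transv (ee j) 1 * mixed (ee i) (ee j) 1 *
      (transv (ee j) (-1) * transv (ff j) (-1)) ∈ H :=
    mul_mem (mul_mem (mul_mem (hF _ _) (hE _ _)) (hM _)) (mul_mem (hE _ _) (hF _ _))
  rcases hxi with hxi | hxi
  · refine ⟨_, mul_mem hg1H hg0H, ?_⟩
    rw [Submonoid.coe_mul, ← mulVec_mulVec, hg0 x hx hxi hxj, hg1]
    · funext k
      rcases k with k | k
      · by_cases hk' : k = j
        · subst hk'; simp [ee, hxj, hij.symm]
        · by_cases hk : k = i
          · subst hk; simp [ee, hxi, hk']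
          · simp [ee, hk, hk']
      · simp [ee, hx k]
    · intro k; simp [ee, hx k]
    · simp [ee, hxi]
    · simp [ee, hxj, hij.symm]
  · refine ⟨_, hg1H, ?_⟩
    rw [hg1 x hx hxi hxj]
    funext k
    rcases k with k | k
    · by_cases hk' : k = j
      · subst hk'; simp [ee, hxj]
      · by_cases hk : k = i
        · subst hk; simp [ee, hxi, hk']
        · simp [ee, hk, hk']
    · simp [ee, hx k]

variable [Finite F]

/-- Two generators when the field has at least three elements. -/
theorem exists_pair_of_three (hm : 2 ≤ m) (hq : 3 ≤ Nat.card F) :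
    ∃ a b : SpG, Subgroup.closure {a, b} = ⊤ := by
  classical
  cases nonempty_fintype F
  have hm0 : 0 < m := by omega
  set i₀ : Fin m := ⟨0, hm0⟩ with hi₀
  set i₁ : Fin m := ⟨1, by omega⟩ with hi₁
  obtain ⟨z, hz⟩ := IsCyclic.exists_generator (α := Fˣ)
  have hz1 : (z : F) ≠ 1 := by
    intro h
    have hsub : ∀ u : Fˣ, u = 1 := fun u => by
      obtain ⟨k, rfl⟩ := Subgroup.mem_zpowers_iff.mp (hz u)
      rw [show z = 1 from Units.ext h, _root_.one_zpow]
    have : Nat.card Fˣ = 1 := Nat.card_eq_one_iff_unique.mpr ⟨⟨fun u v => (hsub u).trans (hsub v).symm⟩, ⟨1⟩⟩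
    rw [Nat.card_units] at this
    omega
  have hee : ⟪(ee i₀ : V), ee i₁⟫ = 0 := form_ee_ee _ _
  set h : SpG := dg i₀ z with hh
  set y : F → SpG := mixed (ee i₀) (ee i₁) with hy
  refine ⟨transv (ee i₁) 1 * h, y 1 * rot hm0, ?_⟩
  set H := Subgroup.closure {transv (ee i₁) 1 * h, y 1 * rot hm0} with hH
  have ha : transv (ee i₁) 1 * h ∈ H := Subgroup.subset_closure (Set.mem_insert _ _)
  have hb : y 1 * rot hm0 ∈ H := Subgroup.subset_closure (Set.mem_insert_of_mem _ rfl)
  have hne : i₀ ≠ i₁ := by simp [hi₀, hi₁, Fin.ext_iff]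
  have hdg_ee : ∀ (i j : Fin m), ⇡((dg i z)) *ᵥ ee j = (if j = i then (z : F) else 1) • ee j := by
    intro i j
    rw [dg_mulVec]
    funext k
    rcases k with k | k <;> by_cases hk : k = j <;> by_cases hji : j = i <;> simp [ee, hk, hji] <;>
      (subst hji; simp [hk])
  have hcomm : Commute (transv (ee i₁) (1 : F)) h := by
    have e := conj_transv h (ee i₁) (1 : F)
    rw [hh, hdg_ee, if_neg hne.symm, one_smul, mul_inv_eq_iff_eq_mul] at e
    exact e.symm
  have hhpow : h ^ (Nat.card F - 1) = 1 := by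
    refine Subtype.ext ?_
    rw [SubmonoidClass.coe_pow, hh, dg, Matrix.diagonal_pow, OneMemClass.coe_one, ← Matrix.diagonal_one]
    congr 1
    funext k
    have hzp : (z : F) ^ (Fintype.card F - 1) = 1 := FiniteField.pow_card_sub_one_eq_one _ z.ne_zero
    rcases k with k | k <;> by_cases hk : k = i₀ <;> simp [hk, hzp]
  have hpow : ∀ k : ℕ, transv (ee (F := F) i₁) 1 ^ k = transv (ee i₁) (k : F) := fun k => by
    induction k with
    | zero => rw [pow_zero, Nat.cast_zero, transv_zero]
    | succ k ih => rw [pow_succ, ih, transv_mul, Nat.cast_succ]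
  have ht : transv (ee (F := F) i₁) 1 ∈ H := by
    have h1 := pow_mem ha (Nat.card F - 1)
    rw [hcomm.mul_pow, hhpow, mul_one, hpow, Nat.cast_sub (Nat.one_le_of_lt hq), Nat.cast_one,
      Nat.card_eq_fintype_card, FiniteField.cast_card_eq_zero, zero_sub, ← transv_inv] at h1
    exact inv_mem_iff.mp h1
  have hhH : h ∈ H := by
    have := mul_mem (inv_mem ht) ha
    rwa [inv_mul_cancel_left] at this
  have hrot : rot hm0 * h * (rot hm0)⁻¹ = dg i₁ z := by
    rw [mul_inv_eq_iff_eq_mul]
    refine ext_of_mulVec fun x => ?_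
    rw [Submonoid.coe_mul, Submonoid.coe_mul, ← mulVec_mulVec, ← mulVec_mulVec, rot_mulVec, rot_mulVec, hh,
      dg_mulVec i₀ z _, dg_mulVec i₁ z _]
    funext k
    rcases k with k | k <;> by_cases hk : (k : ℕ) = 0
    · have : k ≠ i₁ := fun e => by rw [e, hi₁] at hk; simp at hk
      have h' : (⟨m - 1, by omega⟩ : Fin m) ≠ i₀ := by simp [hi₀, Fin.ext_iff]; omega
      simp [rotLin, hk, this, h']
    · by_cases hk1 : (k : ℕ) = 1 <;> simp [rotLin, hk, hk1, hi₀, hi₁, Fin.ext_iff] <;> omega
    · have : k ≠ i₁ := fun e => by rw [e, hi₁] at hk; simp at hk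
      have h' : (⟨m - 1, by omega⟩ : Fin m) ≠ i₀ := by simp [hi₀, Fin.ext_iff]; omega
      simp [rotLin, hk, this, h']
    · by_cases hk1 : (k : ℕ) = 1 <;> simp [rotLin, hk, hk1, hi₀, hi₁, Fin.ext_iff] <;> omega
  set h' : SpG := dg i₁ z with hh'
  have hyh' : ∀ c, h' * y c * h'⁻¹ = y ((z : F) * c) := fun c => by
    rw [hy, conj_mixed, hh', hdg_ee, hdg_ee, if_neg hne, if_pos rfl, one_smul, mixed_smul_right hee]
  have hyh : ∀ c, h * y c * h⁻¹ = y ((z : F) * c) := fun c => by
    rw [hy, conj_mixed, hh, hdg_ee, hdg_ee, if_pos rfl, if_neg hne.symm, one_smul, mixed_smul_left hee]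
  have hymul : ∀ c d, y c * y d = y (c + d) := fun c d => mixed_mul hee c d
  have hhh' : Commute h h' := by
    refine Subtype.ext ?_
    show ⇡(h) * ⇡(h') = ⇡(h') * ⇡(h)
    rw [hh, hh', dg, dg, diagonal_mul_diagonal, diagonal_mul_diagonal]
    congr 1
    funext k
    ring
  have hX : y (1 - (z : F)) * h' ∈ H := by
    have h1 := mul_mem (mul_mem hb hhH) (inv_mem hb)
    have : y 1 * rot hm0 * h * (y 1 * rot hm0)⁻¹ = y (1 - (z : F)) * h' := by
      calc y 1 * rot hm0 * h * (y 1 * rot hm0)⁻¹ = y 1 * (rot hm0 * h * (rot hm0)⁻¹) * (y 1)⁻¹ := by group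
        _ = y 1 * (h' * y (-1) * h'⁻¹) * h' := by rw [hrot, hy, mixed_inv hee]; group
        _ = _ := by rw [hyh', hymul]; congr 2; ring
    rwa [this] at h1
  have hY : y (-((1 - (z : F)) ^ 2)) ∈ H := by
    have h1 := mul_mem (mul_mem (mul_mem hhH hX) (inv_mem hhH)) (inv_mem hX)
    have : h * (y (1 - (z : F)) * h') * h⁻¹ * (y (1 - (z : F)) * h')⁻¹ = y (-((1 - (z : F)) ^ 2)) := by
      calc h * (y (1 - (z : F)) * h') * h⁻¹ * (y (1 - (z : F)) * h')⁻¹
          = (h * y (1 - (z : F)) * h⁻¹) * (h * h' * h⁻¹ * h'⁻¹) * (y (1 - (z : F)))⁻¹ := by group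
        _ = _ := by
          rw [hyh, hhh'.eq, mul_inv_cancel_right, mul_inv_cancel, mul_one, hy, mixed_inv hee, mixed_mul hee]
          congr 1; ring
    rwa [this] at h1
  have hyall : ∀ c, y c ∈ H := by
    have hscale : ∀ k : ℕ, ∀ c, y c ∈ H → y ((z : F) ^ k * c) ∈ H := fun k => by
      induction k with
      | zero => intro c hc; simpa using hc
      | succ k ih =>
        intro c hc
        rw [pow_succ', mul_assoc, ← hyh]
        exact mul_mem (mul_mem hhH (ih c hc)) (inv_mem hhH)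
    intro c
    by_cases hc : c = 0
    · rw [hc, hy, mixed_zero hee]; exact one_mem _
    have hc0 : -((1 - (z : F)) ^ 2) ≠ 0 := neg_ne_zero.mpr (pow_ne_zero _ (sub_ne_zero.mpr hz1.symm))
    obtain ⟨k, hk⟩ := (IsOfFinOrder.mem_powers_iff_mem_zpowers (isOfFinOrder_of_finite z)).mpr
      (hz (Units.mk0 c hc / Units.mk0 _ hc0))
    have hk' : (z : F) ^ k = c / -((1 - (z : F)) ^ 2) := by
      simpa using congrArg (Units.val : Fˣ → F) hk
    have := hscale k _ hY
    rwa [hk', div_mul_cancel₀ _ hc0] at this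
  have hr : rot hm0 ∈ H := by
    have := mul_mem (inv_mem (hyall 1)) hb
    rwa [inv_mul_cancel_left] at this
  have hh'H : h' ∈ H := hrot ▸ mul_mem (mul_mem hr hhH) (inv_mem hr)
  have ht_all : ∀ c, transv (ee (F := F) i₁) c ∈ H := by
    let K : AddSubgroup F :=
      { carrier := {c | transv (ee (F := F) i₁) c ∈ H}
        zero_mem' := by simp only [Set.mem_setOf_eq, transv_zero]; exact one_mem _
        add_mem' := fun {a b} ha hb => by
          simp only [Set.mem_setOf_eq] at *; rw [← transv_mul]; exact mul_mem ha hb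
        neg_mem' := fun {a} ha => by
          simp only [Set.mem_setOf_eq] at *; rw [← transv_inv]; exact inv_mem ha }
    have hsq : ∀ u : F, u * u ∈ K := by
      intro u
      by_cases hu : u = 0
      · rw [hu, mul_zero]; exact K.zero_mem
      obtain ⟨k, hk⟩ := (IsOfFinOrder.mem_powers_iff_mem_zpowers (isOfFinOrder_of_finite z)).mpr
        (hz (Units.mk0 u hu))
      have hk' : (z : F) ^ k = u := by simpa using congrArg (Units.val : Fˣ → F) hk
      rw [← hk']
      clear hk hk'
      induction k with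
      | zero => rw [pow_zero, one_mul]; exact ht
      | succ k ih =>
        show transv _ _ ∈ H
        have := mul_mem (mul_mem hh'H (show transv (ee (F := F) i₁) _ ∈ H from ih)) (inv_mem hh'H)
        rw [conj_transv, hh', hdg_ee, if_pos rfl, transv_smul] at this
        convert this using 2; ring
    intro c
    show c ∈ K
    by_cases h2 : ringChar F = 2
    · obtain ⟨u, rfl⟩ := FiniteField.isSquare_of_char_two h2 c
      exact hsq u
    · have h2' : (2 : F) ≠ 0 := Ring.two_ne_zero h2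
      rw [show c = (c + 1) / 2 * ((c + 1) / 2) - (c - 1) / 2 * ((c - 1) / 2) by field_simp; ring]
      exact K.sub_mem (hsq _) (hsq _)
  obtain ⟨hE, hF⟩ := mem_all hm0 H hr ht_all
  have hM := mixed_ee_all hm0 H hr (i₀ := i₀) (i₁ := i₁) rfl rfl hyall
  exact eq_top_of_steps hm0 H hE hF fun i j hij =>
    step_of_mixed H hE hF (fun e => by rw [e] at hij; omega) (hM i j hij)

end Cfsg.Agent.H2.SpTwoGen
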