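import Cfsg.Agent.H2.SpTwoGen.Three

/-!
Two generators over the field with two elements.
-/

set_option autoImplicit false

namespace Cfsg.Agent.H2.SpTwoGen

open Matrix

variable {m : ℕ} {F : Type*} [Field F]

local notation "V" => (Fin m ⊕ Fin m → F)
local notation "SpG" => Matrix.symplecticGroup (Fin m) F
local notation "⇡(" g ")" => (Subtype.val (g : Matrix.symplecticGroup (Fin m) F) : Matrix (Fin m ⊕ Fin m) (Fin m ⊕ Fin m) F)
local notation "⟪" x ", " y "⟫" => sympBilin m F x y

/-- An element of order three of the Levi subgroup on two pairs. -/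
def levi (i j : Fin m) : SpG := mixed (ee i) (ff j) 1 * mixed (ee j) (ff i) 1

theorem levi_mulVec (h2 : (2 : F) = 0) {i j : Fin m} (hij : i ≠ j) (z : V) :
    (∀ k, (⇡((levi i j : SpG)) *ᵥ z) (Sum.inl k) =
      if k = i then z (Sum.inl j) else if k = j then z (Sum.inl i) + z (Sum.inl j) else z (Sum.inl k)) ∧
    ∀ k, (⇡((levi i j : SpG)) *ᵥ z) (Sum.inr k) =
      if k = i then z (Sum.inr i) + z (Sum.inr j) else if k = j then z (Sum.inr i) else z (Sum.inr k) := by
  have hneg : ∀ c : F, -c = c := fun c => by linear_combination -c * h2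
  rw [levi, Submonoid.coe_mul, ← mulVec_mulVec, mixed_mulVec (form_ee_ff hij.symm), mixed_mulVec (form_ee_ff hij)]
  simp only [form_ee, form_ff, hneg, one_mul]
  constructor <;> intro k <;> by_cases k1 : k = i <;> by_cases k2 : k = j
  · exact absurd (k1.symm.trans k2) hij
  · subst k1; simp [ee, ff, hij, hij.symm, hneg]; linear_combination (z (Sum.inl k)) * h2
  · subst k2; simp [ee, ff, hij, hij.symm, hneg]; try ring
  · simp [ee, ff, k1, k2]
  · exact absurd (k1.symm.trans k2) hij
  · subst k1; simp [ee, ff, hij, hij.symm, hneg]; try ring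
  · subst k2; simp [ee, ff, hij, hij.symm, hneg]; linear_combination (z (Sum.inr k)) * h2
  · simp [ee, ff, k1, k2]

variable [Finite F]

/-- Two generators over the field with two elements. -/
theorem exists_pair_of_two (hm : 3 ≤ m) (hq : Nat.card F = 2) : ∃ a b : SpG, Subgroup.closure {a, b} = ⊤ := by
  classical
  cases nonempty_fintype F
  have hm0 : 0 < m := by omega
  have hF : ∀ c : F, c = 0 ∨ c = 1 := by
    intro c
    by_contra! h
    have h3 : ({0, 1, c} : Finset F).card ≤ Fintype.card F := Finset.card_le_univ _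
    rw [← Nat.card_eq_fintype_card, hq, Finset.card_insert_of_notMem (by simp [h.1.symm]),
      Finset.card_insert_of_notMem (by simp [h.2.symm]), Finset.card_singleton] at h3
    omega
  have h2 : (2 : F) = 0 := by
    rcases hF 2 with h | h
    · exact h
    · exact absurd (show (1 : F) = 0 by linear_combination h) one_ne_zero
  set i₀ : Fin m := ⟨0, hm0⟩ with hi₀
  set i₁ : Fin m := ⟨1, by omega⟩ with hi₁
  set i₂ : Fin m := ⟨2, by omega⟩ with hi₂
  have h01 : i₀ ≠ i₁ := by simp [hi₀, hi₁, Fin.ext_iff]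
  have h20 : i₂ ≠ i₀ := by simp [hi₀, hi₂, Fin.ext_iff]
  have h21 : i₂ ≠ i₁ := by simp [hi₁, hi₂, Fin.ext_iff]
  set t : SpG := transv (ee i₂) 1 with ht
  set g : SpG := levi i₀ i₁ with hg
  refine ⟨t * g, rot hm0, ?_⟩
  set H := Subgroup.closure {t * g, rot hm0} with hH
  have ha : t * g ∈ H := Subgroup.subset_closure (Set.mem_insert _ _)
  have hr : rot hm0 ∈ H := Subgroup.subset_closure (Set.mem_insert_of_mem _ rfl)
  have hge : ⇡(g) *ᵥ ee i₂ = ee i₂ := by
    funext k
    rcases k with k | k
    · rw [hg, (levi_mulVec h2 h01 _).1]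
      by_cases k1 : k = i₀ <;> by_cases k2 : k = i₁ <;> simp [ee, k1, k2, h20.symm, h21.symm]
    · rw [hg, (levi_mulVec h2 h01 _).2]
      by_cases k1 : k = i₀ <;> by_cases k2 : k = i₁ <;> simp [ee, k1, k2]
  have hcomm : Commute t g := by
    have e := conj_transv g (ee i₂) (1 : F)
    rw [hge, mul_inv_eq_iff_eq_mul] at e
    exact e.symm
  have hg3 : g ^ 3 = 1 := by
    refine ext_of_mulVec fun z => ?_
    rw [pow_succ, pow_two, Submonoid.coe_mul, Submonoid.coe_mul, ← mulVec_mulVec, ← mulVec_mulVec,
      OneMemClass.coe_one, one_mulVec, hg]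
    funext k
    rcases k with k | k
    · simp only [(levi_mulVec h2 h01 _).1, if_true, if_neg h01.symm]
      by_cases k1 : k = i₀
      · subst k1; simp [h01.symm]; linear_combination (z (Sum.inl i₁)) * h2
      · by_cases k2 : k = i₁
        · subst k2; simp [h01.symm]; linear_combination (z (Sum.inl i₀) + z (Sum.inl i₁)) * h2
        · simp [k1, k2]
    · simp only [(levi_mulVec h2 h01 _).2, if_true, if_neg h01.symm]
      by_cases k1 : k = i₀
      · subst k1; simp [h01.symm]; linear_combination (z (Sum.inr i₀) + z (Sum.inr i₁)) * h2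
      · by_cases k2 : k = i₁
        · subst k2; simp [h01.symm]; linear_combination (z (Sum.inr i₀)) * h2
        · simp [k1, k2]
  have ht2 : t ^ 2 = 1 := by
    rw [ht, pow_two, transv_mul, one_add_one_eq_two, h2, transv_zero]
  have hgH : g ∈ H := by
    have h := pow_mem ha 4
    rwa [hcomm.mul_pow, show t ^ 4 = 1 by rw [pow_mul t 2 2, ht2, one_pow], one_mul, pow_succ, hg3, one_mul] at h
  have htH : t ∈ H := by
    have h := mul_mem ha (inv_mem hgH)
    rwa [mul_inv_cancel_right] at h
  have h0 : ∀ c, transv (ee (F := F) i₂) c ∈ H := fun c => by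
    rcases hF c with rfl | rfl
    · rw [transv_zero]; exact one_mem _
    · exact htH
  obtain ⟨hE, hFf⟩ := mem_all hm0 H hr h0
  have hL : ∀ i j : Fin m, (j : ℕ) = i + 1 → levi i j ∈ H := by
    rintro ⟨i, hi⟩
    induction i with
    | zero =>
      intro j hj
      rw [show (⟨0, hi⟩ : Fin m) = i₀ from rfl, show j = i₁ from Fin.ext (by simp only [hi₁] at *; omega)]
      exact hgH
    | succ i ih =>
      intro j hj
      simp only at hj
      have hmid : i + 1 < m := hi
      have := mul_mem (mul_mem hr (ih (by omega) ⟨i + 1, hmid⟩ rfl)) (inv_mem hr)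
      have e : rot hm0 * levi ⟨i, by omega⟩ ⟨i + 1, hmid⟩ * (rot hm0)⁻¹ = (levi ⟨i + 1, hi⟩ j : SpG) := by
        have hsplit : ∀ A B : SpG, rot hm0 * (A * B) * (rot hm0)⁻¹ =
            rot hm0 * A * (rot hm0)⁻¹ * (rot hm0 * B * (rot hm0)⁻¹) := fun A B => by group
        rw [levi, levi, hsplit, conj_mixed, conj_mixed, rot_ee hm0 (i := ⟨i, by omega⟩) (j := ⟨i + 1, hi⟩) rfl,
          rot_ff hm0 (i := ⟨i, by omega⟩) (j := ⟨i + 1, hi⟩) rfl, rot_ee hm0 (i := ⟨i + 1, hmid⟩) (j := j) (by simp only; omega),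
          rot_ff hm0 (i := ⟨i + 1, hmid⟩) (j := j) (by simp only; omega)]
      rwa [e] at this
  refine eq_top_of_steps hm0 H hE hFf fun i j hij x hx hxj hxi => ?_
  have hne : i ≠ j := fun e => by rw [e] at hij; omega
  rcases hxi with hxi | hxi
  · refine ⟨levi i j * levi i j, mul_mem (hL i j hij) (hL i j hij), ?_⟩
    rw [Submonoid.coe_mul, ← mulVec_mulVec]
    funext k
    rcases k with k | k
    · simp only [(levi_mulVec h2 hne _).1, if_true, if_neg hne.symm, hxi, hxj]
      by_cases k1 : k = i <;> by_cases k2 : k = j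
      · exact absurd (k1.symm.trans k2) hne
      · subst k1; simp [k2]
      · subst k2; simp [k1]; linear_combination h2
      · simp [k1, k2]
    · simp [(levi_mulVec h2 hne _).2, hx]
  · refine ⟨levi i j, hL i j hij, ?_⟩
    funext k
    rcases k with k | k
    · simp only [(levi_mulVec h2 hne _).1, hxi, hxj]
      by_cases k1 : k = i <;> by_cases k2 : k = j
      · exact absurd (k1.symm.trans k2) hne
      · subst k1; simp [k2]
      · subst k2; simp [k1]; linear_combination h2
      · simp [k1, k2]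
    · simp [(levi_mulVec h2 hne _).2, hx]

end Cfsg.Agent.H2.SpTwoGen
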